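import Cfsg.Agent.H925.Rs.Pair
import Cfsg.Agent.H727.GW.Glue
import Cfsg.Agent.ClassicalGeometry.SympIso
import Cfsg.Agent.S0749

/-!
# S3691, `PSp_2m(q)`, `m ≥ 5`: N1 (helper242)

`full_fpf` : if `C` induces everything on `S^⊥ / S` then an element of prime order `t ≠ p` of `A` has no nonzero fixed vectors.
-/

set_option autoImplicit false
set_option linter.unusedSectionVars false

namespace Cfsg.Agent.H242.Rs

open Cfsg Matrix Module Subgroup Cfsg.Agent.H925.Rs Cfsg.Agent.H727.GW Cfsg.Agent.LieClassical.SympCount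
  Cfsg.Agent.ClassicalGeometry.SympBasic

universe v w

/-! ### group theory -/

/-- the index of a subgroup is bounded by the number of values -/
theorem card_le_values {G : Type*} [Group G] [Finite G] (H : Subgroup G) {α : Type*} [Finite α] (φ : G → α)
    (h : ∀ x y, φ x = φ y → x⁻¹ * y ∈ H) : Nat.card G ≤ Nat.card α * Nat.card H := by
  have h1 : Nat.card (G ⧸ H) ≤ Nat.card α := by
    refine Nat.card_le_card_of_injective (fun q : G ⧸ H => φ q.out) fun q q' hq => ?_
    rw [← QuotientGroup.out_eq' q, ← QuotientGroup.out_eq' q']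
    exact QuotientGroup.eq.2 (h _ _ hq)
  have h2 := H.card_mul_index
  rw [← h2, Subgroup.index, mul_comm]
  exact Nat.mul_le_mul_right _ h1

/-- normal subgroups of `Sp_2n(q)`, `n ≥ 3` -/
theorem normal_dich {F : Type*} [Field F] [Fintype F] {n : ℕ} (hn : 3 ≤ n) {G : Type*} [Group G]
    (e : symplecticGroup (Fin n) F ≃* G) (N : Subgroup G) (hN : N.Normal) : N = ⊤ ∨ Nat.card N ≤ 2 := by
  have hN' : (N.comap e.toMonoidHom).Normal := hN.comap _
  by_cases h : N.comap e.toMonoidHom ≤ Subgroup.center (symplecticGroup (Fin n) F)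
  · right
    have h1 : Nat.card (N.comap e.toMonoidHom) ≤ Nat.card (Subgroup.center (symplecticGroup (Fin n) F)) :=
      Subgroup.card_le_of_le h
    have h2 : Nat.card (N.comap e.toMonoidHom) = Nat.card N := Nat.card_congr
      ((e.subgroupMap (N.comap e.toMonoidHom)).trans (MulEquiv.subgroupCongr
        (Subgroup.map_comap_eq_self_of_surjective e.surjective N))).toEquiv
    rw [← h2]
    refine h1.trans ?_
    rw [LieClassical.SympCenter.card_center (by omega)]
    exact Nat.le_of_dvd (by norm_num) (Nat.gcd_dvd_left _ _)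
  · left
    have h1 := LieClassical.SympSimple.commutator_le_of_not_le_center (S0765.result n) (N.comap e.toMonoidHom) h
    rw [LieClassical.SympPerfect.commutator_eq_top (F := F) (m := n) (Or.inl hn), top_le_iff] at h1
    have h2 := Subgroup.map_comap_eq_self_of_surjective (f := e.toMonoidHom) e.surjective N
    rw [h1, Subgroup.map_top_of_surjective _ e.surjective] at h2
    exact h2.symm

section

variable {F : Type v} [Field F] {V : Type w} [AddCommGroup V] [Module F V] {B : LinearMap.BilinForm F V}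

/-- transport of isometries -/
def cjI {n : ℕ} (e : (Fin n ⊕ Fin n → F) ≃ₗ[F] V) (he : ∀ x y, B (e x) (e y) = sympForm n F x y) :
    Isos (sympBilin n F) ≃* isomGroup B where
  toFun x := ⟨e.symm.trans (x.1.trans e), fun u v => by
    show B (e (x.1 (e.symm u))) (e (x.1 (e.symm v))) = B u v
    have h1 : sympForm n F (x.1 (e.symm u)) (x.1 (e.symm v)) = sympForm n F (e.symm u) (e.symm v) := x.2 _ _
    rw [he, h1, ← he, e.apply_symm_apply, e.apply_symm_apply]⟩
  invFun y := ⟨e.trans (y.1.trans e.symm), fun u v => by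
    show sympForm n F (e.symm (y.1 (e u))) (e.symm (y.1 (e v))) = sympForm n F u v
    rw [← he, e.apply_symm_apply, e.apply_symm_apply, y.2, he]⟩
  left_inv x := by
    apply Subtype.ext
    apply LinearEquiv.ext
    intro v
    show e.symm (e (x.1 (e.symm (e v)))) = x.1 v
    rw [e.symm_apply_apply, e.symm_apply_apply]
  right_inv y := by
    apply Subtype.ext
    apply LinearEquiv.ext
    intro v
    show e (e.symm (y.1 (e (e.symm v)))) = y.1 v
    rw [e.apply_symm_apply, e.apply_symm_apply]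
  map_mul' x y := by
    apply Subtype.ext
    apply LinearEquiv.ext
    intro v
    show e (x.1 (y.1 (e.symm v))) = e (x.1 (e.symm (e (y.1 (e.symm v)))))
    rw [e.symm_apply_apply]

theorem exists_equiv [FiniteDimensional F V] (hB : ∀ x, B x x = 0) (hnd : ∀ x, (∀ y, B x y = 0) → x = 0) {n : ℕ}
    (hn : finrank F V = 2 * n) : Nonempty (symplecticGroup (Fin n) F ≃* isomGroup B) := by
  obtain ⟨e, he⟩ := ClassicalGeometry.SympIso.exists_linearEquiv_sympForm B hB hnd hn
  exact ⟨spE.trans (cjI e he)⟩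

theorem isos_iff {x : V ≃ₗ[F] V} : x ∈ Isos B ↔ x ∈ isomGroup B := Iff.rfl

/-! ### the relation -/

/-- `c` and `y` agree on `S^⊥` modulo `S` -/
def Rl (B : LinearMap.BilinForm F V) (S : Submodule F V) (c y : V ≃ₗ[F] V) : Prop :=
  ∀ u, (∀ s ∈ S, B u s = 0) → c u - y u ∈ S

/-- isometries preserving `S` -/
def stS (B : LinearMap.BilinForm F V) (S : Submodule F V) : Subgroup (V ≃ₗ[F] V) where
  carrier := {c | c ∈ Isos B ∧ ∀ w, c w ∈ S ↔ w ∈ S}
  one_mem' := ⟨(Isos B).one_mem, fun _ => Iff.rfl⟩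
  mul_mem' := fun {a b} ha hb => ⟨(Isos B).mul_mem ha.1 hb.1, fun w => by
    show a (b w) ∈ S ↔ w ∈ S
    rw [ha.2, hb.2]⟩
  inv_mem' := fun {a} ha => ⟨(Isos B).inv_mem ha.1, fun w => by
    rw [← ha.2]
    show a (a⁻¹ w) ∈ S ↔ w ∈ S
    rw [show a (a⁻¹ w) = w from a.apply_symm_apply w]⟩

variable {S : Submodule F V}

theorem perp_map {c : V ≃ₗ[F] V} (hc : c ∈ stS B S) {u : V} (hu : ∀ s ∈ S, B u s = 0) : ∀ s ∈ S, B (c u) s = 0 := by
  intro s hs
  have h1 : c (c⁻¹ s) = s := c.apply_symm_apply s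
  have h2 : c⁻¹ s ∈ S := by
    rw [← hc.2, h1]
    exact hs
  rw [← h1, hc.1]
  exact hu _ h2

theorem Rl.refl (y : V ≃ₗ[F] V) : Rl B S y y := fun u _ => by
  rw [sub_self]
  exact S.zero_mem

theorem Rl.mul {c c' y y' : V ≃ₗ[F] V} (hc : c ∈ stS B S) (hy' : y' ∈ stS B S) (h : Rl B S c y) (h' : Rl B S c' y') :
    Rl B S (c * c') (y * y') := by
  intro u hu
  have h1 : (c * c') u - (y * y') u = c (c' u - y' u) + (c (y' u) - y (y' u)) := by
    rw [map_sub]
    show c (c' u) - y (y' u) = _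
    abel
  rw [h1]
  exact S.add_mem ((hc.2 _).2 (h' u hu)) (h _ (perp_map hy' hu))

theorem Rl.inv {c y : V ≃ₗ[F] V} (hc : c ∈ stS B S) (hy : y ∈ stS B S) (h : Rl B S c y) : Rl B S c⁻¹ y⁻¹ := by
  intro u hu
  have h1 := h _ (perp_map ((stS B S).inv_mem hy) hu)
  have h2 : y (y⁻¹ u) = u := y.apply_symm_apply u
  rw [h2] at h1
  rw [← hc.2, map_sub, show c (c⁻¹ u) = u from c.apply_symm_apply u, ← neg_sub]
  exact S.neg_mem h1

theorem Rl.pow {c y : V ≃ₗ[F] V} (hc : c ∈ stS B S) (hy : y ∈ stS B S) (h : Rl B S c y) (k : ℕ) :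
    Rl B S (c ^ k) (y ^ k) := by
  induction k with
  | zero => rw [pow_zero, pow_zero]; exact Rl.refl _
  | succ k ih =>
    rw [pow_succ, pow_succ]
    exact Rl.mul ((stS B S).pow_mem hc k) hy ih h

theorem mem_stS_of_fix {c : V ≃ₗ[F] V} (hc : c ∈ Isos B) (h : ∀ w ∈ S, c w = w) : c ∈ stS B S := by
  refine ⟨hc, fun w => ⟨fun hw => ?_, fun hw => ?_⟩⟩
  · have h1 : c (c w) = c w := h _ hw
    rw [← c.injective h1]
    exact hw
  · rw [h w hw]
    exact hw

theorem inv_fix {c : V ≃ₗ[F] V} {w : V} (h : c w = w) : c⁻¹ w = w := by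
  have h1 : c⁻¹ (c w) = w := c.symm_apply_apply w
  rwa [h] at h1

theorem pow_fix' {c : V ≃ₗ[F] V} {w : V} (h : c w = w) (k : ℕ) : (c ^ k) w = w := pow_fix h k

/-! ### the unipotent radical -/

/-- isometries trivial on `S` and on `S^⊥ / S` -/
def Ru (B : LinearMap.BilinForm F V) (S : Submodule F V) : Subgroup (V ≃ₗ[F] V) where
  carrier := {g | g ∈ Isos B ∧ (∀ w ∈ S, g w = w) ∧ Rl B S g 1}
  one_mem' := ⟨(Isos B).one_mem, fun _ _ => rfl, Rl.refl _⟩
  mul_mem' := fun {a b} ha hb => ⟨(Isos B).mul_mem ha.1 hb.1, fun w hw => by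
    show a (b w) = w
    rw [hb.2.1 w hw, ha.2.1 w hw], by
    have h := Rl.mul (mem_stS_of_fix ha.1 ha.2.1) (stS B S).one_mem ha.2.2 hb.2.2
    rwa [mul_one] at h⟩
  inv_mem' := fun {a} ha => ⟨(Isos B).inv_mem ha.1, fun w hw => inv_fix (ha.2.1 w hw), by
    have h := Rl.inv (mem_stS_of_fix ha.1 ha.2.1) (stS B S).one_mem ha.2.2
    rwa [inv_one] at h⟩

theorem fix_of_step {g : V ≃ₗ[F] V} {t : ℕ} (ht : (t : F) ≠ 0) (hgt : g ^ t = 1) {v : V} (h : g (g v - v) = g v - v) :
    g v = v := by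
  have key : ∀ k : ℕ, (g ^ k) v = v + k • (g v - v) := by
    intro k
    induction k with
    | zero => simp
    | succ k ih =>
      rw [pow_succ']
      show g ((g ^ k) v) = _
      rw [ih, map_add, map_nsmul, h, succ_nsmul]
      abel
  have h1 := key t
  rw [hgt] at h1
  have h2 : t • (g v - v) = 0 := by
    have h3 : v + t • (g v - v) = v + 0 := by rw [add_zero]; exact h1.symm
    exact add_left_cancel h3
  rw [← Nat.cast_smul_eq_nsmul F] at h2
  exact sub_eq_zero.1 ((smul_eq_zero.1 h2).resolve_left ht)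

/-- **no elements of order prime to the characteristic** -/
theorem eq_one_of_Ru {g : V ≃ₗ[F] V} (hg : g ∈ Ru B S) {t : ℕ} (ht : (t : F) ≠ 0) (hgt : g ^ t = 1) : g = 1 := by
  have h1 : ∀ u, (∀ s ∈ S, B u s = 0) → g u = u := fun u hu => fix_of_step ht hgt (hg.2.1 _ (hg.2.2 u hu))
  apply LinearEquiv.ext
  intro v
  show g v = v
  refine fix_of_step ht hgt (h1 _ fun s hs => ?_)
  rw [map_sub, LinearMap.sub_apply]
  nth_rewrite 1 [← hg.2.1 s hs]
  rw [hg.1, sub_self]

theorem not_dvd_Ru [Finite (V ≃ₗ[F] V)] {t : ℕ} (htp : t.Prime) (ht : (t : F) ≠ 0) : ¬ t ∣ Nat.card (Ru B S) := by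
  intro h
  have := Fact.mk htp
  obtain ⟨g, hg⟩ := exists_prime_orderOf_dvd_card' t h
  have h1 : (g : V ≃ₗ[F] V) ^ t = 1 := by
    have := pow_orderOf_eq_one g
    rw [hg] at this
    exact congrArg Subtype.val this
  have h2 := eq_one_of_Ru g.2 ht h1
  have h3 : g = 1 := Subtype.ext h2
  rw [h3, orderOf_one] at hg
  exact htp.one_lt.ne hg

/-- **conjugacy modulo the unipotent radical** -/
theorem exists_conj [Finite (V ≃ₗ[F] V)] {t : ℕ} (htp : t.Prime) (ht : (t : F) ≠ 0) {c y : V ≃ₗ[F] V}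
    (hc : c ∈ Isos B) (hy : y ∈ Isos B) (hcS : ∀ w ∈ S, c w = w) (hyS : ∀ w ∈ S, y w = w) (h : Rl B S c y)
    (hct : c ^ t = 1) (hyt : y ^ t = 1) : ∃ r ∈ Isos B, r * y * r⁻¹ = c := by
  have := Fact.mk htp
  have hcs := mem_stS_of_fix hc hcS
  have hys := mem_stS_of_fix hy hyS
  have key : ∀ (a b : V ≃ₗ[F] V), a ∈ Isos B → b ∈ Isos B → (∀ w ∈ S, a w = w) → (∀ w ∈ S, b w = w) → Rl B S b a →
      ∀ r ∈ Ru B S, a * r * b⁻¹ ∈ Ru B S := by
    intro a b ha hb haS hbS hab r hr
    have has := mem_stS_of_fix ha haS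
    have hbs := mem_stS_of_fix hb hbS
    refine ⟨(Isos B).mul_mem ((Isos B).mul_mem ha hr.1) ((Isos B).inv_mem hb), fun w hw => ?_, ?_⟩
    · show a (r (b⁻¹ w)) = w
      rw [inv_fix (hbS w hw), hr.2.1 w hw, haS w hw]
    · have h1 : Rl B S (a * r) (a * 1) := Rl.mul has (stS B S).one_mem (Rl.refl a) hr.2.2
      have h2 := Rl.mul ((stS B S).mul_mem has (mem_stS_of_fix hr.1 hr.2.1)) ((stS B S).inv_mem has) h1
        (Rl.inv hbs has hab)
      rwa [mul_one, mul_inv_cancel] at h2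
  have hsymm : Rl B S c⁻¹ y⁻¹ := Rl.inv hcs hys h
  let f : Ru B S → Ru B S := fun r => ⟨y * r * c⁻¹, key y c hy hc hyS hcS h r r.2⟩
  have hf : Function.Injective f := by
    intro r r' hrr
    have h1 : y * (r : V ≃ₗ[F] V) * c⁻¹ = y * (r' : V ≃ₗ[F] V) * c⁻¹ := congrArg Subtype.val hrr
    exact Subtype.ext (mul_left_cancel (mul_right_cancel h1))
  let σ : Equiv.Perm (Ru B S) := Equiv.ofBijective f (Finite.injective_iff_bijective.1 hf)
  have hσ : ∀ (k : ℕ) (r : Ru B S), (((σ ^ k) r : Ru B S) : V ≃ₗ[F] V) = y ^ k * r * (c⁻¹) ^ k := by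
    intro k r
    induction k with
    | zero => simp
    | succ k ih =>
      rw [pow_succ']
      show y * ((σ ^ k) r : Ru B S) * c⁻¹ = _
      rw [ih, pow_succ', pow_succ]
      simp only [mul_assoc]
  have hσt : σ ^ t ^ 1 = 1 := by
    rw [pow_one]
    ext1 r
    apply Subtype.ext
    rw [hσ, hyt, inv_pow, hct, inv_one, mul_one, one_mul]
    rfl
  have : Fintype (Ru B S) := Fintype.ofFinite _
  obtain ⟨r, hr⟩ := Equiv.Perm.exists_fixed_point_of_prime (p := t) (n := 1) (by
    rw [← Nat.card_eq_fintype_card]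
    exact not_dvd_Ru htp ht) hσt
  have h1 : y * (r : V ≃ₗ[F] V) * c⁻¹ = r := congrArg Subtype.val hr
  refine ⟨(r : V ≃ₗ[F] V)⁻¹, (Isos B).inv_mem r.2.1, ?_⟩
  rw [inv_inv, mul_assoc, inv_mul_eq_iff_eq_mul]
  exact mul_inv_eq_iff_eq_mul.1 h1

/-! ### the isometries fixing a hyperbolic pair -/

theorem perp_nd (hB : ∀ x, B x x = 0) (hnd : ∀ x, (∀ y, B x y = 0) → x = 0) {s s1 : V} (h : B s s1 = 1) :
    ∀ c ∈ perp B s s1, (∀ c' ∈ perp B s s1, B c c' = 0) → c = 0 := by
  intro c hc h1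
  exact congrArg Subtype.val (nondeg_perp B hB hnd h ⟨c, hc⟩ fun y => h1 y y.2)

/-- the isometries of the complement -/
noncomputable def psi [FiniteDimensional F V] (hB : ∀ x, B x x = 0) (hnd : ∀ x, (∀ y, B x y = 0) → x = 0) {s s1 : V}
    (h : B s s1 = 1) : isomGroup (B.restrict (perp B s s1)) →* (V ≃ₗ[F] V) where
  toFun t := glue hB (perp B s s1) (perp_nd hB hnd h) t.1
  map_one' := by
    apply LinearEquiv.ext
    intro v
    obtain ⟨c, d, hd, rfl⟩ := exists_decomp hB (perp B s s1) (perp_nd hB hnd h) v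
    exact glue_apply hB (perp B s s1) (perp_nd hB hnd h) _ c d hd
  map_mul' x y := by
    apply LinearEquiv.ext
    intro v
    obtain ⟨c, d, hd, rfl⟩ := exists_decomp hB (perp B s s1) (perp_nd hB hnd h) v
    show glue hB (perp B s s1) (perp_nd hB hnd h) (x.1 * y.1) (c + d) =
      glue hB (perp B s s1) (perp_nd hB hnd h) x.1 (glue hB (perp B s s1) (perp_nd hB hnd h) y.1 (c + d))
    rw [glue_apply hB _ (perp_nd hB hnd h) _ c d hd, glue_apply hB _ (perp_nd hB hnd h) _ c d hd,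
      glue_apply hB _ (perp_nd hB hnd h) _ _ d hd]
    rfl

section psi

variable [FiniteDimensional F V] (hB : ∀ x, B x x = 0) (hnd : ∀ x, (∀ y, B x y = 0) → x = 0) {s s1 : V}
    (h : B s s1 = 1)

include hB hnd

theorem psi_apply (t : isomGroup (B.restrict (perp B s s1))) (c : perp B s s1) {d : V}
    (hd : d ∈ B.orthogonal (perp B s s1)) : psi hB hnd h t (c + d) = t.1 c + d :=
  glue_apply hB (perp B s s1) (perp_nd hB hnd h) t.1 c d hd

theorem psi_mem (t : isomGroup (B.restrict (perp B s s1))) : psi hB hnd h t ∈ Isos B :=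
  glue_mem hB (perp B s s1) (perp_nd hB hnd h) t.2

theorem psi_orth (t : isomGroup (B.restrict (perp B s s1))) {d : V}
    (hd : d ∈ B.orthogonal (perp B s s1)) : psi hB hnd h t d = d := by
  have h1 := psi_apply hB hnd h t 0 hd
  rwa [map_zero, Submodule.coe_zero, zero_add] at h1

omit hnd [FiniteDimensional F V] in
theorem orth_left : s ∈ B.orthogonal (perp B s s1) := by
  rw [LinearMap.BilinForm.mem_orthogonal_iff]
  intro d hd
  show B d s = 0
  rw [alt_swap B hB, ((mem_perp B _ _ _).1 hd).1, neg_zero]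

omit hnd [FiniteDimensional F V] in
theorem orth_right : s1 ∈ B.orthogonal (perp B s s1) := by
  rw [LinearMap.BilinForm.mem_orthogonal_iff]
  intro d hd
  show B d s1 = 0
  rw [alt_swap B hB, ((mem_perp B _ _ _).1 hd).2, neg_zero]

/-- every isometry fixing `s`, `s1` is in the image -/
theorem exists_psi {y : V ≃ₗ[F] V} (hy : y ∈ Isos B) (hs : y s = s) (hs1 : y s1 = s1) :
    ∃ t, psi hB hnd h t = y := by
  have hyD : ∀ d ∈ perp B s s1, y d ∈ perp B s s1 := by
    intro d hd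
    rw [mem_perp] at hd ⊢
    constructor
    · nth_rewrite 1 [← hs]
      rw [hy]
      exact hd.1
    · nth_rewrite 1 [← hs1]
      rw [hy]
      exact hd.2
  let f : perp B s s1 ≃ₗ[F] perp B s s1 := LinearEquiv.ofInjectiveEndo ((y : V →ₗ[F] V).restrict hyD) (by
    intro a b hab
    exact Subtype.ext (y.injective (congrArg Subtype.val hab)))
  have hf : ∀ a : perp B s s1, ((f a : perp B s s1) : V) = y a := fun a => rfl
  have hfm : f ∈ isomGroup (B.restrict (perp B s s1)) := by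
    intro a b
    show B (f a : V) (f b : V) = B (a : V) (b : V)
    rw [hf, hf]
    exact hy _ _
  refine ⟨⟨f, hfm⟩, ?_⟩
  apply LinearEquiv.ext
  intro v
  obtain ⟨c, d, hd, rfl⟩ := exists_decomp hB (perp B s s1) (perp_nd hB hnd h) v
  rw [psi_apply hB hnd h _ _ hd, map_add]
  show y c + d = y c + y d
  have h' : B s1 s = -1 := by rw [alt_swap B hB, h]
  have he : d - (-(B s1 d)) • s - (B s d) • s1 ∈ perp B s s1 := by
    rw [mem_perp]
    simp [hB, h, h']
  have he2 : d - (-(B s1 d)) • s - (B s d) • s1 ∈ B.orthogonal (perp B s s1) :=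
    Submodule.sub_mem _ (Submodule.sub_mem _ hd (Submodule.smul_mem _ _ (orth_left hB)))
      (Submodule.smul_mem _ _ (orth_right hB))
  have he3 : d - (-(B s1 d)) • s - (B s d) • s1 = 0 := by
    refine perp_nd hB hnd h _ he fun c' hc' => ?_
    rw [alt_swap B hB, neg_eq_zero]
    exact (LinearMap.BilinForm.mem_orthogonal_iff.1 he2) c' hc'
  have hd2 : d = (-(B s1 d)) • s + (B s d) • s1 := by
    rw [sub_sub] at he3
    exact sub_eq_zero.1 he3
  have hd3 : y ((-(B s1 d)) • s + (B s d) • s1) = (-(B s1 d)) • s + (B s d) • s1 := by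
    rw [map_add, map_smul, map_smul, hs, hs1]
  have hd4 : y d = d := by
    calc y d = y ((-(B s1 d)) • s + (B s d) • s1) := congrArg y hd2
      _ = _ := hd3
      _ = d := hd2.symm
  rw [hd4]

end psi

/-! ### the elements induced by elements of `C` trivial on `S` -/

section Jz

variable [FiniteDimensional F V] (hB : ∀ x, B x x = 0) (hnd : ∀ x, (∀ y, B x y = 0) → x = 0) {s s1 : V}
    (h : B s s1 = 1) {C : Subgroup (V ≃ₗ[F] V)} (hC : C ≤ stS B S) (hS : ∀ w ∈ S, ∃ a b : F, w = a • s + b • s1)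

include hB hnd h hS in
theorem psi_fix (t : isomGroup (B.restrict (perp B s s1))) : ∀ w ∈ S, psi hB hnd h t w = w := by
  intro w hw
  obtain ⟨a, b, rfl⟩ := hS w hw
  rw [map_add, map_smul, map_smul, psi_orth hB hnd h t (orth_left hB), psi_orth hB hnd h t (orth_right hB)]

include hS in
theorem psi_stS (t : isomGroup (B.restrict (perp B s s1))) : psi hB hnd h t ∈ stS B S :=
  mem_stS_of_fix (psi_mem hB hnd h t) (psi_fix hB hnd h hS t)

/-- the subgroup -/
def Jz : Subgroup (isomGroup (B.restrict (perp B s s1))) where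
  carrier := {t | ∃ c ∈ C, (∀ w ∈ S, c w = w) ∧ Rl B S c (psi hB hnd h t)}
  one_mem' := ⟨1, C.one_mem, fun _ _ => rfl, by rw [map_one]; exact Rl.refl _⟩
  mul_mem' := by
    rintro a b ⟨c, hc, h1, h2⟩ ⟨c', hc', h1', h2'⟩
    refine ⟨c * c', C.mul_mem hc hc', fun w hw => ?_, ?_⟩
    · show c (c' w) = w
      rw [h1' w hw, h1 w hw]
    · rw [map_mul]
      exact Rl.mul (hC hc) (psi_stS hB hnd h hS b) h2 h2'
  inv_mem' := by
    rintro a ⟨c, hc, h1, h2⟩
    refine ⟨c⁻¹, C.inv_mem hc, fun w hw => inv_fix (h1 w hw), ?_⟩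
    rw [map_inv]
    exact Rl.inv (hC hc) (psi_stS hB hnd h hS a) h2

theorem mem_Jz {t : isomGroup (B.restrict (perp B s s1))} : t ∈ Jz hB hnd h hC hS ↔
    ∃ c ∈ C, (∀ w ∈ S, c w = w) ∧ Rl B S c (psi hB hnd h t) := Iff.rfl

variable (hfull : ∀ y ∈ Isos B, (∀ w ∈ S, y w ∈ S) → ∃ c ∈ C, ∀ u, (∀ s ∈ S, B u s = 0) → c u - y u ∈ S)

include hfull in
theorem Jz_normal : (Jz hB hnd h hC hS).Normal := by
  constructor
  rintro t ⟨c, hc, h1, h2⟩ g
  obtain ⟨d, hd, hd2⟩ := hfull (psi hB hnd h g) (psi_mem hB hnd h g) (fun w hw => by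
    rw [psi_fix hB hnd h hS g w hw]; exact hw)
  refine ⟨d * c * d⁻¹, C.mul_mem (C.mul_mem hd hc) (C.inv_mem hd), fun w hw => ?_, ?_⟩
  · show d (c (d⁻¹ w)) = w
    have hw' : d⁻¹ w ∈ S := (((stS B S).inv_mem (hC hd)).2 w).2 hw
    rw [h1 _ hw']
    exact d.apply_symm_apply w
  · rw [map_mul, map_mul, map_inv]
    exact Rl.mul ((stS B S).mul_mem (hC hd) (hC hc)) ((stS B S).inv_mem (psi_stS hB hnd h hS g))
      (Rl.mul (hC hd) (psi_stS hB hnd h hS t) hd2 h2) (Rl.inv (hC hd) (psi_stS hB hnd h hS g) hd2)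

include hfull in
theorem card_le_Jz [Finite F] (hdS : finrank F S ≤ 2) : Nat.card (isomGroup (B.restrict (perp B s s1))) ≤
    Nat.card F ^ 4 * Nat.card (Jz hB hnd h hC hS) := by
  have : Finite V := Module.finite_of_finite F
  have hfin : Finite (S →ₗ[F] S) := Module.finite_of_finite F
  have hfinG : Finite (perp B s s1 ≃ₗ[F] perp B s s1) :=
    Finite.of_injective (fun e : perp B s s1 ≃ₗ[F] perp B s s1 => (e : perp B s s1 → perp B s s1)) DFunLike.coe_injective
  have hex : ∀ t : isomGroup (B.restrict (perp B s s1)), ∃ c ∈ C, Rl B S c (psi hB hnd h t) := fun t =>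
    hfull (psi hB hnd h t) (psi_mem hB hnd h t) (fun w hw => by rw [psi_fix hB hnd h hS t w hw]; exact hw)
  choose c hc hc2 using hex
  let φ : isomGroup (B.restrict (perp B s s1)) → (S →ₗ[F] S) := fun t =>
    ((c t : V →ₗ[F] V)).restrict (fun w hw => ((hC (hc t)).2 w).2 hw)
  have h1 := card_le_values (Jz hB hnd h hC hS) φ (by
    intro x y hxy
    refine ⟨(c x)⁻¹ * c y, C.mul_mem (C.inv_mem (hc x)) (hc y), fun w hw => ?_, ?_⟩
    · have h2 : c x w = c y w := congrArg (fun l : S →ₗ[F] S => ((l ⟨w, hw⟩ : S) : V)) hxy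
      show (c x)⁻¹ (c y w) = w
      rw [← h2]
      exact (c x).symm_apply_apply w
    · rw [map_mul, map_inv]
      exact Rl.mul ((stS B S).inv_mem (hC (hc x))) (psi_stS hB hnd h hS y)
        (Rl.inv (hC (hc x)) (psi_stS hB hnd h hS x) (hc2 x)) (hc2 y))
  refine h1.trans (Nat.mul_le_mul_right _ ?_)
  rw [Module.natCard_eq_pow_finrank (K := F), Module.finrank_linearMap]
  refine Nat.pow_le_pow_right Nat.card_pos ?_
  calc finrank F S * finrank F S ≤ 2 * 2 := Nat.mul_le_mul hdS hdS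
    _ = 4 := rfl

include hfull in
theorem Jz_top [Finite F] (hdS : finrank F S ≤ 2) {m : ℕ} (hm : 5 ≤ m) (hdim : finrank F V = 2 * m) :
    Jz hB hnd h hC hS = ⊤ := by
  have : Fintype F := Fintype.ofFinite F
  have hd := finrank_perp B hB h
  have hd' : finrank F (perp B s s1) = 2 * (m - 1) := by omega
  have hB' : ∀ x, B.restrict (perp B s s1) x x = 0 := fun x => hB x.1
  have hnd' : ∀ x, (∀ y, B.restrict (perp B s s1) x y = 0) → x = 0 := nondeg_perp B hB hnd h
  obtain ⟨e⟩ := exists_equiv hB' hnd' hd'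
  rcases normal_dich (by omega) e _ (Jz_normal hB hnd h hC hS hfull) with h1 | h1
  · exact h1
  · exfalso
    have h2 := card_le_Jz hB hnd h hC hS hfull hdS
    rw [card_isomGroup _ hB' hnd' hd', Nat.card_eq_fintype_card] at h2
    have hq : 2 ≤ Fintype.card F := Fintype.one_lt_card
    have h3 : 1 ≤ ∏ i ∈ Finset.range (m - 1), (Fintype.card F ^ (2 * (i + 1)) - 1) := by
      apply Nat.one_le_iff_ne_zero.2
      refine Finset.prod_ne_zero_iff.2 fun i _ => ?_
      have : 1 < Fintype.card F ^ (2 * (i + 1)) := Nat.one_lt_pow (by omega) (by omega)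
      omega
    have h4 : Fintype.card F ^ 16 ≤ Fintype.card F ^ ((m - 1) ^ 2) := by
      refine Nat.pow_le_pow_right (by omega) ?_
      calc 16 = 4 ^ 2 := by norm_num
        _ ≤ (m - 1) ^ 2 := Nat.pow_le_pow_left (by omega) 2
    have h5 : Fintype.card F ^ 16 ≤ Fintype.card F ^ 4 * 2 :=
      calc Fintype.card F ^ 16 = Fintype.card F ^ 16 * 1 := (mul_one _).symm
        _ ≤ _ := (Nat.mul_le_mul h4 h3).trans (h2.trans (Nat.mul_le_mul_left _ h1))
    have h6 : Fintype.card F ^ 16 = Fintype.card F ^ 4 * Fintype.card F ^ 12 := by rw [← pow_add]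
    rw [h6] at h5
    have h7 := Nat.le_of_mul_le_mul_left h5 (by positivity)
    have h8 : 2 ^ 12 ≤ Fintype.card F ^ 12 := Nat.pow_le_pow_left hq 12
    omega

end Jz

/-- transitivity on hyperbolic pairs -/
theorem exists_isom [FiniteDimensional F V] (hB : ∀ x, B x x = 0) (hnd : ∀ x, (∀ y, B x y = 0) → x = 0) {u u1 s s1 : V}
    (hu : B u u1 = 1) (hs : B s s1 = 1) : ∃ g ∈ Isos B, g u = s ∧ g u1 = s1 := by
  have lin : ∀ {a b : V}, B a b = 1 → LinearIndependent F ![a, b] := by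
    intro a b hab
    rw [LinearIndependent.pair_iff]
    intro x y hxy
    have h1 : B a (x • a + y • b) = 0 := by rw [hxy, map_zero]
    have h2 : B (x • a + y • b) b = 0 := by rw [hxy, map_zero, LinearMap.zero_apply]
    rw [map_add, map_smul, map_smul, hB, hab] at h1
    rw [map_add, map_smul, map_smul, LinearMap.add_apply, LinearMap.smul_apply, LinearMap.smul_apply, hB, hab] at h2
    simp at h1 h2
    exact ⟨h2, h1⟩
  let bx := Module.Basis.span (lin hu)
  let byy := Module.Basis.span (lin hs)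
  let φ := bx.equiv byy (Equiv.refl _)
  have hφ : ∀ i, φ (bx i) = byy i := fun i => bx.equiv_apply i byy (Equiv.refl _)
  have hbx : ∀ i, (bx i : V) = ![u, u1] i := fun i => congrArg Subtype.val (Module.Basis.span_apply (lin hu) i)
  have hby : ∀ i, (byy i : V) = ![s, s1] i := fun i => congrArg Subtype.val (Module.Basis.span_apply (lin hs) i)
  obtain ⟨g, hg, hg'⟩ := Cfsg.Agent.S0749.result B (nondeg_of hB hnd) hB
    (Submodule.span F (Set.range ![u, u1])) (Submodule.span F (Set.range ![s, s1])) φ (by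
      have key : (LinearMap.BilinForm.restrict B (Submodule.span F (Set.range ![s, s1]))).compl₁₂
          (φ : _ →ₗ[F] _) (φ : _ →ₗ[F] _) =
          LinearMap.BilinForm.restrict B (Submodule.span F (Set.range ![u, u1])) := by
        refine LinearMap.BilinForm.ext_basis bx fun i j => ?_
        change B (φ (bx i) : V) (φ (bx j) : V) = B (bx i : V) (bx j : V)
        rw [hφ, hφ, hbx, hbx, hby, hby]
        fin_cases i <;> fin_cases j <;> simp [hB, hu, hs, alt_swap B hB u1 u, alt_swap B hB s1 s]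
      intro x y
      exact LinearMap.congr_fun (LinearMap.congr_fun key x) y)
  refine ⟨g, hg, ?_, ?_⟩
  · have := hg' (bx 0)
    rw [hbx, hφ, hby] at this
    exact this
  · have := hg' (bx 1)
    rw [hbx, hφ, hby] at this
    exact this

end

/-- **N1** -/
theorem full_fpf {F : Type v} [Field F] [Finite F] {V : Type w} [AddCommGroup V] [Module F V] [FiniteDimensional F V]
    {B : LinearMap.BilinForm F V} {p f m : ℕ} {A C : Subgroup (V ≃ₗ[F] V)} {S : Submodule F V}
    (P : Pair B p f m A C) (hm : 5 ≤ m) (hS : Full B C S) {z : V ≃ₗ[F] V} (hz : z ∈ A) {t : ℕ} (ht : t.Prime) (htp : t ≠ p)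
    (hzt : z ^ t = 1) (hz1 : z ≠ 1) : ∀ v, z v = v → v = 0 := by
  intro v hv
  by_contra hv0
  have hFin : Finite V := Module.finite_of_finite F
  have hfinG : Finite (V ≃ₗ[F] V) := Finite.of_injective (fun e : V ≃ₗ[F] V => (e : V → V)) DFunLike.coe_injective
  -- `t` is invertible
  have ht0 : (t : F) ≠ 0 := by
    have : Fintype F := Fintype.ofFinite F
    intro h0
    have hp : (ringChar F).Prime := CharP.char_is_prime F (ringChar F)
    have hd : ringChar F ∣ Fintype.card F := by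
      obtain ⟨n, -, hn⟩ := FiniteField.card F (ringChar F)
      rw [hn]
      exact dvd_pow_self _ n.ne_zero
    rw [← Nat.card_eq_fintype_card, P.card] at hd
    have h2 : ringChar F = p := (Nat.prime_dvd_prime_iff_eq hp P.prime).1 (hp.dvd_of_dvd_pow hd)
    have h3 : ringChar F ∣ t := (ringChar.spec F t).1 h0
    rw [h2, Nat.prime_dvd_prime_iff_eq P.prime ht] at h3
    exact htp h3.symm
  have hzI := P.leA hz
  -- a hyperbolic pair in the fixed space
  obtain ⟨w, hw, hvw⟩ : ∃ w, z w = w ∧ B v w = 1 := by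
    by_contra hno
    push Not at hno
    apply hv0
    refine nondeg_fix P.nondeg hzI ht0 hzt v hv fun c' hc' => ?_
    by_contra h0
    refine hno ((B v c')⁻¹ • c') ?_ ?_
    · rw [map_smul, show z c' = c' from hc']
    · rw [map_smul, smul_eq_mul, inv_mul_cancel₀ h0]
  -- a hyperbolic pair for `S`
  obtain ⟨s, s1, hss, hspan⟩ : ∃ s s1, B s s1 = 1 ∧ ∀ w ∈ S, ∃ a b : F, w = a • s + b • s1 := by
    rcases hS.dim with h1 | ⟨h2, h3⟩
    · obtain ⟨⟨s, hsS⟩, hs0, hsp⟩ := finrank_eq_one_iff'.1 h1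
      have hs0' : s ≠ 0 := fun h0 => hs0 (Subtype.ext h0)
      obtain ⟨y, hy⟩ : ∃ y, B s y ≠ 0 := by
        by_contra hno
        push Not at hno
        exact hs0' (P.nondeg s hno)
      refine ⟨s, (B s y)⁻¹ • y, by rw [map_smul, smul_eq_mul, inv_mul_cancel₀ hy], fun w hw => ?_⟩
      obtain ⟨a, ha⟩ := hsp ⟨w, hw⟩
      refine ⟨a, 0, ?_⟩
      rw [zero_smul, add_zero]
      exact (congrArg Subtype.val ha).symm
    · have hpos : 0 < finrank F S := by omega
      obtain ⟨s', hs0⟩ := Module.finrank_pos_iff_exists_ne_zero.1 hpos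
      obtain ⟨s, hsS⟩ := s'
      have hs0' : s ≠ 0 := fun h0 => hs0 (Subtype.ext h0)
      obtain ⟨y, hyS, hy⟩ := h3 s hsS hs0'
      have h1 : B s ((B s y)⁻¹ • y) = 1 := by rw [map_smul, smul_eq_mul, inv_mul_cancel₀ hy]
      refine ⟨s, (B s y)⁻¹ • y, h1, fun w hw => ?_⟩
      have hyS' : (B s y)⁻¹ • y ∈ S := S.smul_mem _ hyS
      generalize (B s y)⁻¹ • y = s1 at h1 hyS'
      have hli : LinearIndependent F ![(⟨s, hsS⟩ : S), ⟨s1, hyS'⟩] := by
        rw [LinearIndependent.pair_iff]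
        intro x y hxy
        have hxy' : x • s + y • s1 = 0 := congrArg Subtype.val hxy
        have e1 : B s (x • s + y • s1) = 0 := by rw [hxy', map_zero]
        have e2 : B (x • s + y • s1) s1 = 0 := by rw [hxy', map_zero, LinearMap.zero_apply]
        rw [map_add, map_smul, map_smul, P.alt, h1] at e1
        rw [map_add, map_smul, map_smul, LinearMap.add_apply, LinearMap.smul_apply, LinearMap.smul_apply, P.alt, h1] at e2
        simp at e1 e2
        exact ⟨e2, e1⟩
      have hsp := hli.span_eq_top_of_card_eq_finrank' (by rw [h2, Fintype.card_fin])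
      have hmem : (⟨w, hw⟩ : S) ∈ Submodule.span F (Set.range ![(⟨s, hsS⟩ : S), ⟨s1, hyS'⟩]) := by
        rw [hsp]
        exact Submodule.mem_top
      rw [Matrix.range_cons, Matrix.range_cons, Matrix.range_empty, Set.union_empty, Set.singleton_union,
        Submodule.mem_span_pair] at hmem
      obtain ⟨a, b, hab⟩ := hmem
      exact ⟨a, b, (congrArg Subtype.val hab).symm⟩
  have hdS : finrank F S ≤ 2 := by
    rcases hS.dim with h1 | h1
    · omega
    · omega
  have hCS : C ≤ stS B S := by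
    intro c hc
    refine ⟨P.leC hc, fun w => ⟨fun hw => ?_, fun hw => hS.inv c hc w hw⟩⟩
    have h1 := hS.inv c⁻¹ (C.inv_mem hc) _ hw
    rwa [show c⁻¹ (c w) = w from c.symm_apply_apply w] at h1
  obtain ⟨g, hg, hgv, hgw⟩ := exists_isom P.alt P.nondeg hvw hss
  -- the conjugate
  obtain ⟨y, hy⟩ : ∃ y, y = g * z * g⁻¹ := ⟨_, rfl⟩
  have hyI : y ∈ Isos B := by
    rw [hy]
    exact (Isos B).mul_mem ((Isos B).mul_mem hg hzI) ((Isos B).inv_mem hg)
  have hgi : ∀ {a b : V}, g a = b → g⁻¹ b = a := by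
    intro a b hab
    rw [← hab]
    exact g.symm_apply_apply a
  have hys : y s = s := by
    rw [hy]
    show g (z (g⁻¹ s)) = s
    rw [hgi hgv, hv, hgv]
  have hys1 : y s1 = s1 := by
    rw [hy]
    show g (z (g⁻¹ s1)) = s1
    rw [hgi hgw, hw, hgw]
  have hyt : y ^ t = 1 := by
    rw [hy, conj_pow, hzt, mul_one, mul_inv_cancel]
  have hyS : ∀ w ∈ S, y w = w := by
    intro w hw
    obtain ⟨a, b, rfl⟩ := hspan w hw
    rw [map_add, map_smul, map_smul, hys, hys1]
  obtain ⟨x, hx⟩ := exists_psi P.alt P.nondeg hss hyI hys hys1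
  have hxJ : x ∈ Jz P.alt P.nondeg hss hCS hspan := by
    rw [Jz_top P.alt P.nondeg hss hCS hspan hS.full hdS hm P.dim]
    exact Subgroup.mem_top _
  obtain ⟨c, hc, hcS, hcy⟩ := hxJ
  rw [hx] at hcy
  have hcI := P.leC hc
  have hcs := mem_stS_of_fix hcI hcS
  have hyst := mem_stS_of_fix hyI hyS
  -- the order
  obtain ⟨N, hN⟩ : ∃ N, N = Nat.card (Ru B S) := ⟨_, rfl⟩
  have hco : Nat.Coprime N t := by
    rw [Nat.coprime_comm, Nat.Prime.coprime_iff_not_dvd ht, hN]
    exact not_dvd_Ru ht ht0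
  have hct : c ^ t ∈ Ru B S := by
    refine ⟨(Isos B).pow_mem hcI t, fun w hw => pow_fix' (hcS w hw) t, ?_⟩
    have h1 := Rl.pow hcs hyst hcy t
    rwa [hyt] at h1
  have hctN : (c ^ t) ^ N = 1 := by
    have h1 : (⟨c ^ t, hct⟩ : Ru B S) ^ Nat.card (Ru B S) = 1 := pow_card_eq_one'
    rw [hN]
    exact congrArg Subtype.val h1
  obtain ⟨k, -, hk⟩ := Nat.exists_mul_mod_eq_one_of_coprime hco ht.one_lt
  have h1 : (c ^ (N * k)) ^ t = 1 := by
    rw [← pow_mul, show N * k * t = t * N * k by ring, pow_mul, pow_mul, hctN, one_pow]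
  have h2 : y ^ (N * k) = y := by
    rw [← Nat.div_add_mod (N * k) t, hk, pow_add, pow_mul, hyt, one_pow, one_mul, pow_one]
  have h3 : Rl B S (c ^ (N * k)) y := by
    have := Rl.pow hcs hyst hcy (N * k)
    rwa [h2] at this
  obtain ⟨r, hr, hrc⟩ := exists_conj ht ht0 ((Isos B).pow_mem hcI (N * k)) hyI (fun w hw => pow_fix' (hcS w hw) _) hyS h3
    h1 hyt
  obtain ⟨a, ha⟩ := P.conj z hz (r * g) ((Isos B).mul_mem hr hg) (by
    have h4 : r * g * z * (r * g)⁻¹ = c ^ (N * k) := by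
      rw [← hrc, hy]
      group
    rw [h4]
    exact C.pow_mem hc _)
  have ha1 : a = 1 := by
    have h5 := ha v
    rw [hv] at h5
    have h6 : (1 - a) • v = 0 := by rw [sub_smul, one_smul, ← h5, sub_self]
    exact (sub_eq_zero.1 ((smul_eq_zero.1 h6).resolve_right hv0)).symm
  apply hz1
  apply LinearEquiv.ext
  intro u
  rw [ha, ha1, one_smul]
  rfl

end Cfsg.Agent.H242.Rs
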